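import Cfsg.Agent.H94.BR.SpBasic

/-!
# HUB BR, `Sp_{2m}(2^f)`, T1c: a `G`-submodule of `End V` with a nonscalar alternating element contains `Lam0` (helper124)
-/

set_option autoImplicit false

namespace Cfsg.Agent.H124.BR

open Cfsg.Agent.H883.BR Cfsg.Agent.H94.BR

section

variable {m q : ℕ} {K : Type} [Field K] {F : Subfield K} {V : Type} [AddCommGroup V] [Module K V]
  {B : LinearMap.BilinForm K V} {G : Type} [Group G] {ρ : G →* Module.End K V}
  {b : Module.Basis (Fin m ⊕ Fin m) K V} {S : Submodule K (Module.End K V)}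

/-- conjugation with the transvection with centre `v` -/
theorem wd_step (D : SpD m q F B ρ b) (hS : Inv (ad ρ) ⊤ S) {X : Module.End K V} (hX : X ∈ S) (hL : X ∈ Lam B) {v : V}
    (hv : Rat F b v) : wd B v (X v) ∈ S := by
  obtain ⟨g, hg⟩ := D.tv v hv
  have h1 := hS g (Subgroup.mem_top g) X hX
  have hgg : ρ g * ρ g = 1 := by
    rw [hg]
    refine LinearMap.ext fun x => ?_
    rw [Module.End.mul_apply]
    simp only [LinearMap.add_apply, Module.End.one_apply, sq_apply, map_add, map_smul, D.alt, zero_smul, add_zero]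
    rw [add_assoc, add_self_mod D, add_zero]
  have hinv : ρ g⁻¹ = ρ g := by
    calc ρ g⁻¹ = ρ g⁻¹ * (ρ g * ρ g) := by rw [hgg, mul_one]
      _ = (ρ g⁻¹ * ρ g) * ρ g := by rw [mul_assoc]
      _ = ρ g := by rw [← map_mul, inv_mul_cancel, map_one, one_mul]
  have h2 : ad ρ g X = X + wd B v (X v) := by
    refine LinearMap.ext fun x => ?_
    have e1 : B v (X v) = 0 := by rw [symmB D]; exact hL.2 v
    have e2 : B v (X x) = B (X v) x := (hL.1 v x).symm
    rw [ad_apply, hinv, Module.End.mul_apply, Module.End.mul_apply, hg]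
    simp only [LinearMap.add_apply, Module.End.one_apply, sq_apply, wd_apply, map_add, map_smul, e1, e2, zero_smul,
      add_zero]
    abel
  rw [h2] at h1
  have h3 := S.sub_mem h1 hX
  rwa [add_sub_cancel_left] at h3

/-- rational vectors of `v^⊥` separate the points outside `K v` -/
theorem exists_rat_perp (D : SpD m q F B ρ b) {v w : V} (hv : Rat F b v) (hw : ¬ ∃ c : K, w = c • v) :
    ∃ u : V, Rat F b u ∧ B v u = 0 ∧ B w u ≠ 0 := by
  by_contra hcon
  push Not at hcon
  by_cases hv0 : v = 0
  · apply hw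
    refine ⟨0, ?_⟩
    rw [zero_smul]
    refine nondeg D fun y => ?_
    have h1 : B w = 0 := b.ext fun i => by
      rw [hcon _ (rat_basis i) (by rw [hv0]; simp)]
      rfl
    rw [h1]
    rfl
  · obtain ⟨i, hi⟩ : ∃ i, B v (b i) ≠ 0 := by
      by_contra h
      push Not at h
      apply hv0
      refine nondeg D fun y => ?_
      have h1 : B v = 0 := b.ext fun i => by rw [h i]; rfl
      rw [h1]; rfl
    set y0 : V := (B v (b i))⁻¹ • b i with hy0
    have hy0F : Rat F b y0 := Rat.smul (F.inv_mem (Rat.form D hv (rat_basis i))) (rat_basis i)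
    have hy1 : B v y0 = 1 := by rw [hy0, map_smul, smul_eq_mul, inv_mul_cancel₀ hi]
    apply hw
    refine ⟨B w y0, ?_⟩
    have h2 : B w = B w y0 • B v := b.ext fun j => by
      have h3 := hcon (b j - B v (b j) • y0) (by
        intro k
        rw [map_sub]
        exact F.sub_mem (rat_basis j k) (Rat.smul (Rat.form D hv (rat_basis j)) hy0F k)) (by
        rw [map_sub, map_smul, hy1, smul_eq_mul, mul_one, sub_self])
      rw [map_sub, map_smul, sub_eq_zero, smul_eq_mul] at h3
      rw [h3, LinearMap.smul_apply, smul_eq_mul, mul_comm]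
    have h4 : w - B w y0 • v = 0 := nondeg D fun y => by
      rw [map_sub, LinearMap.sub_apply, map_smul, LinearMap.smul_apply, sub_eq_zero]
      conv_lhs => rw [h2]
      rfl
    exact sub_eq_zero.1 h4

theorem wd_mem_Lam (D : SpD m q F B ρ b) {v w : V} (_ : B v w = 0) : wd B v w ∈ Lam B := by
  rw [mem_Lam]
  refine ⟨fun x y => ?_, fun x => ?_⟩
  · simp only [wd_apply, map_add, map_smul, LinearMap.add_apply, LinearMap.smul_apply, smul_eq_mul]
    rw [symmB D x v, symmB D x w]
    ring
  · simp only [wd_apply, map_add, map_smul, LinearMap.add_apply, LinearMap.smul_apply, smul_eq_mul]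
    have := add_self_K D (B w x * B v x)
    linear_combination this

/-- all rational `x ⟂ v` -/
theorem wd_all (D : SpD m q F B ρ b) (hS : Inv (ad ρ) ⊤ S) {v u : V} (hv : Rat F b v) (huv : B v u = 0)
    (hu : ¬ ∃ c : K, u = c • v) (h : wd B v u ∈ S) {x : V} (hx : Rat F b x) (hvx : B v x = 0) : wd B v x ∈ S := by
  have key : ∀ x : V, Rat F b x → B v x = 0 → B u x ≠ 0 → wd B v x ∈ S := by
    intro x hx hvx hux
    have h1 := wd_step D hS h (wd_mem_Lam D huv) hx
    rw [wd_apply, hvx, zero_smul, add_zero, wd_smul] at h1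
    have h2 := S.smul_mem (B u x)⁻¹ h1
    rwa [smul_smul, inv_mul_cancel₀ hux, one_smul, wd_comm] at h2
  by_cases hux : B u x = 0
  · obtain ⟨x0, hx0, h0, h1⟩ := exists_rat_perp D hv hu
    have h2 := key x0 hx0 h0 h1
    have h3 := key (x + x0) (hx.add hx0) (by rw [map_add, hvx, h0, add_zero]) (by rwa [map_add, hux, zero_add])
    rw [wd_add] at h3
    have h4 := S.sub_mem h3 h2
    rwa [add_sub_cancel_right] at h4
  · exact key x hx hvx hux

/-- `v` is good -/
def Good (F : Subfield K) (B : LinearMap.BilinForm K V) (b : Module.Basis (Fin m ⊕ Fin m) K V)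
    (S : Submodule K (Module.End K V)) (v : V) : Prop := ∀ x, Rat F b x → B v x = 0 → wd B v x ∈ S

theorem Good.next (D : SpD m q F B ρ b) (hS : Inv (ad ρ) ⊤ S) {v x : V} (hv : Good F B b S v)
    (hx : Rat F b x) (hvx : B v x = 0) (hne : ¬ ∃ c : K, v = c • x) : Good F B b S x := by
  intro y hy hxy
  have h1 : wd B x v ∈ S := by rw [wd_comm]; exact hv x hx hvx
  exact wd_all D hS hx (by rw [symmB D, hvx]) hne h1 hy hxy

theorem Good.smul {v : V} (hv : Good F B b S v) (c : K) : c = 0 ∨ Good F B b S (c • v) := by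
  by_cases hc : c = 0
  · exact Or.inl hc
  · refine Or.inr fun x hx hvx => ?_
    rw [map_smul, LinearMap.smul_apply, smul_eq_mul, mul_eq_zero] at hvx
    rw [smul_wd]
    exact S.smul_mem _ (hv x hx (hvx.resolve_left hc))

theorem finrank_V (D : SpD m q F B ρ b) : 4 ≤ Module.finrank K V := by
  rw [Module.finrank_eq_card_basis b, Fintype.card_sum, Fintype.card_fin]
  have := D.two_le
  omega

theorem good_all (D : SpD m q F B ρ b) (hS : Inv (ad ρ) ⊤ S) {v : V} (hvF : Rat F b v) (hv0 : v ≠ 0)
    (hv : Good F B b S v) {z : V} (hz : Rat F b z) : Good F B b S z := by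
  by_cases hzv : ∃ c : K, z = c • v
  · obtain ⟨c, rfl⟩ := hzv
    rcases hv.smul c with rfl | h
    · intro x _ _
      rw [zero_smul]
      have : wd B (0 : V) x = 0 := by
        have := smul_wd (B := B) (0 : K) (0 : V) x
        rwa [zero_smul, zero_smul] at this
      rw [this]
      exact S.zero_mem
    · exact h
  · have hz0 : z ≠ 0 := by
      rintro rfl
      exact hzv ⟨0, by rw [zero_smul]⟩
    have hvz : ¬ ∃ c : K, v = c • z := by
      rintro ⟨c, hc⟩
      by_cases hc0 : c = 0
      · rw [hc0, zero_smul] at hc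
        exact hv0 hc
      · exact hzv ⟨c⁻¹, by rw [hc, smul_smul, inv_mul_cancel₀ hc0, one_smul]⟩
    by_cases hB : B v z = 0
    · exact hv.next D hS hz hB hvz
    · have hB' : B z v ≠ 0 := by rwa [symmB D]
      -- a rational vector orthogonal to both
      let x : Fin m ⊕ Fin m → V := fun j => b j - (B z (b j) * (B z v)⁻¹) • v - (B v (b j) * (B v z)⁻¹) • z
      have hxF : ∀ j, Rat F b (x j) := by
        intro j k
        rw [map_sub, map_sub]
        refine F.sub_mem (F.sub_mem (rat_basis j k) ?_) ?_
        · exact Rat.smul (F.mul_mem (Rat.form D hz (rat_basis j)) (F.inv_mem (Rat.form D hz hvF))) hvF k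
        · exact Rat.smul (F.mul_mem (Rat.form D hvF (rat_basis j)) (F.inv_mem (Rat.form D hvF hz))) hz k
      have hxv : ∀ j, B v (x j) = 0 := by
        intro j
        simp only [x, map_sub, map_smul, smul_eq_mul, D.alt, mul_zero, sub_zero]
        field_simp
        ring
      have hxz : ∀ j, B z (x j) = 0 := by
        intro j
        simp only [x, map_sub, map_smul, smul_eq_mul, D.alt, mul_zero, sub_zero]
        field_simp
        ring
      obtain ⟨j, hj⟩ : ∃ j, x j ≠ 0 := by
        by_contra h
        push Not at h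
        have htop : (⊤ : Submodule K V) ≤ Submodule.span K {v, z} := by
          rw [← b.span_eq, Submodule.span_le]
          rintro _ ⟨j, rfl⟩
          have h1 : b j = (B z (b j) * (B z v)⁻¹) • v + (B v (b j) * (B v z)⁻¹) • z := by
            have h2 := h j
            simp only [x] at h2
            rw [sub_sub, sub_eq_zero] at h2
            exact h2
          rw [h1]
          exact Submodule.add_mem _ (Submodule.smul_mem _ _ (Submodule.subset_span (by simp)))
            (Submodule.smul_mem _ _ (Submodule.subset_span (by simp)))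
        have h3 : Module.finrank K V ≤ 2 := by
          classical
          rw [← finrank_top K V, ← top_le_iff.1 htop]
          have h5 : ({v, z} : Set V) = (({v, z} : Finset V) : Set V) := by simp
          rw [h5]
          exact (finrank_span_finset_le_card _).trans Finset.card_le_two
        have h4 := finrank_V D
        omega
      have h1 : Good F B b S (x j) := hv.next D hS (hxF j) (hxv j) (by
        rintro ⟨c, hc⟩
        apply hB'
        rw [hc, map_smul, hxz, smul_zero])
      refine h1.next D hS hz (by rw [symmB D]; exact hxz j) ?_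
      rintro ⟨c, hc⟩
      have h2 := hxv j
      rw [hc, map_smul, smul_eq_mul, mul_eq_zero] at h2
      rcases h2 with h2 | h2
      · rw [h2, zero_smul] at hc
        exact hj hc
      · exact hB h2

/-- **T1c** -/
theorem lam_sub (D : SpD m q F B ρ b) {S : Submodule K (Module.End K V)} (hS : Inv (ad ρ) ⊤ S) {X : Module.End K V}
    (hX : X ∈ S) (hL : X ∈ Lam B) (hn : ¬ ∃ c : K, X = c • 1) : Lam0 B ≤ S := by
  have h2m := D.two_le
  -- a rational vector which is not an eigenvector
  obtain ⟨v, hvF, hXv⟩ : ∃ v : V, Rat F b v ∧ ¬ ∃ c : K, X v = c • v := by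
    by_contra hcon
    push Not at hcon
    choose c hc using fun j => hcon (b j) (rat_basis j)
    have hcc : ∀ i j, c i = c j := by
      intro i j
      by_cases hij : i = j
      · rw [hij]
      · obtain ⟨d, hd⟩ := hcon (b i + b j) ((rat_basis i).add (rat_basis j))
        rw [map_add, hc, hc] at hd
        have h1 := congrArg (fun x => b.repr x i) hd
        have h2 := congrArg (fun x => b.repr x j) hd
        simp [hij, Ne.symm hij] at h1 h2
        rw [h1, h2]
    apply hn
    have i0 : Fin m ⊕ Fin m := Sum.inl ⟨0, by omega⟩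
    refine ⟨c i0, b.ext fun j => ?_⟩
    rw [hc, LinearMap.smul_apply, Module.End.one_apply, hcc j i0]
  have hv0 : v ≠ 0 := by
    rintro rfl
    exact hXv ⟨0, by rw [map_zero, smul_zero]⟩
  have hw : B v (X v) = 0 := by rw [symmB D]; exact hL.2 v
  have hgood : Good F B b S v := fun x hx hvx => wd_all D hS hvF hw hXv (wd_step D hS hX hL hvF) hx hvx
  have hall : ∀ z x : V, Rat F b z → Rat F b x → B z x = 0 → wd B z x ∈ S := fun z x hz hx hzx =>
    good_all D hS hvF hv0 hgood hz x hx hzx
  -- the quotient
  let T : V →ₗ[K] V →ₗ[K] (Module.End K V ⧸ S) := LinearMap.mk₂ K (fun v w => S.mkQ (wd B v w))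
    (fun a a' c => by rw [add_wd, map_add]) (fun k a c => by rw [smul_wd, map_smul])
    (fun a c c' => by rw [wd_add, map_add]) (fun k a c => by rw [wd_smul, map_smul])
  let i0 : Fin m := ⟨0, by omega⟩
  set h0 : Module.End K V ⧸ S := S.mkQ (wd B (b (Sum.inl i0)) (b (Sum.inr i0))) with hh0
  have hdiag : ∀ i, S.mkQ (wd B (b (Sum.inl i)) (b (Sum.inr i))) = h0 := by
    intro i
    by_cases hi : i = i0
    · rw [hi]
    · have h1 := hall (b (Sum.inl i) + b (Sum.inl i0)) (b (Sum.inr i) + b (Sum.inr i0))
        ((rat_basis _).add (rat_basis _)) ((rat_basis _).add (rat_basis _)) (by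
          simp only [map_add, LinearMap.add_apply, D.lr, if_true, if_neg hi, if_neg (Ne.symm hi)]
          have := add_self_K D 1
          linear_combination this)
      have h2 := hall (b (Sum.inl i)) (b (Sum.inr i0)) (rat_basis _) (rat_basis _) (by rw [D.lr, if_neg hi])
      have h3 := hall (b (Sum.inl i0)) (b (Sum.inr i)) (rat_basis _) (rat_basis _) (by
        rw [D.lr, if_neg (Ne.symm hi)])
      rw [← S.ker_mkQ, LinearMap.mem_ker] at h1 h2 h3
      rw [wd_add, add_wd, add_wd, map_add, map_add, map_add, h2, h3, zero_add, add_zero] at h1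
      rw [hh0]
      have h4 : S.mkQ (wd B (b (Sum.inl i0)) (b (Sum.inr i0))) + S.mkQ (wd B (b (Sum.inl i0)) (b (Sum.inr i0))) = 0 := by
        rw [← two_smul K, two_zero D, zero_smul]
      calc S.mkQ (wd B (b (Sum.inl i)) (b (Sum.inr i))) = S.mkQ (wd B (b (Sum.inl i)) (b (Sum.inr i))) +
            (S.mkQ (wd B (b (Sum.inl i0)) (b (Sum.inr i0))) + S.mkQ (wd B (b (Sum.inl i0)) (b (Sum.inr i0)))) := by
              rw [h4, add_zero]
        _ = (S.mkQ (wd B (b (Sum.inl i)) (b (Sum.inr i))) + S.mkQ (wd B (b (Sum.inl i0)) (b (Sum.inr i0)))) +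
            S.mkQ (wd B (b (Sum.inl i0)) (b (Sum.inr i0))) := by rw [add_assoc]
        _ = _ := by rw [h1, zero_add]
  have hT : T = B.compr₂ (LinearMap.toSpanSingleton K (Module.End K V ⧸ S) h0) := by
    refine LinearMap.ext_basis b b fun i j => ?_
    rw [LinearMap.mk₂_apply, LinearMap.compr₂_apply, LinearMap.toSpanSingleton_apply]
    rcases i with i | i <;> rcases j with j | j
    · rw [D.ll, zero_smul, ← LinearMap.mem_ker, S.ker_mkQ]
      exact hall _ _ (rat_basis _) (rat_basis _) (D.ll i j)
    · rw [D.lr]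
      split_ifs with hij
      · rw [one_smul, ← hij, hdiag]
      · rw [zero_smul, ← LinearMap.mem_ker, S.ker_mkQ]
        exact hall _ _ (rat_basis _) (rat_basis _) (by rw [D.lr, if_neg hij])
    · rw [symmB D, D.lr, wd_comm]
      split_ifs with hij
      · rw [one_smul, hij, hdiag]
      · rw [zero_smul, ← LinearMap.mem_ker, S.ker_mkQ]
        exact hall _ _ (rat_basis _) (rat_basis _) (by rw [D.lr, if_neg hij])
    · rw [D.rr, zero_smul, ← LinearMap.mem_ker, S.ker_mkQ]
      exact hall _ _ (rat_basis _) (rat_basis _) (D.rr i j)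
  refine Submodule.span_le.2 ?_
  rintro _ ⟨x, y, hxy, rfl⟩
  have h1 : T x y = 0 := by
    rw [hT, LinearMap.compr₂_apply, hxy, map_zero]
  rw [LinearMap.mk₂_apply, ← LinearMap.mem_ker, S.ker_mkQ] at h1
  exact h1

end

end Cfsg.Agent.H124.BR
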